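import Mathlib

/-!
# Consecutive divisors of `2 ^ a * 5 * q ^ b`
-/

set_option autoImplicit false

namespace Cfsg.Lib.A15

open Finset

theorem dvd_five_of_odd {x : ℤ} {i : ℕ} (h1 : Odd x) (h2 : x ∣ 5 * 2 ^ i) : x ∣ 5 :=
  ((Int.isCoprime_two_right.2 h1).pow_right (n := i)).dvd_of_dvd_mul_right h2

theorem odd_geom {x : ℤ} (hx : Odd x) {k : ℕ} (hk : Odd k) : Odd (∑ j ∈ range k, x ^ j) := by
  have : ∀ k : ℕ, (∑ j ∈ range k, x ^ j) % 2 = k % 2 := fun k => by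
    induction k with
    | zero => simp
    | succ k ih =>
      have := Int.odd_iff.1 (hx.pow (n := k))
      rw [sum_range_succ]
      push_cast
      omega
  rw [Int.odd_iff, this]
  obtain ⟨m, rfl⟩ := hk
  push_cast
  omega

theorem pow_eq_self {q k i : ℕ} {E : ℤ} (h7 : 7 ≤ q) (hq : q.Prime) (hk : k ≠ 0)
    (h1 : E ∣ 5 * 2 ^ i) (h2 : 2 ∣ E) (h3 : ¬ 3 ∣ E)
    (h4 : (q : ℤ) ^ k = E + 1 ∨ (q : ℤ) ^ k + 1 = E) : k = 1 := by
  have hq2 : Odd (q : ℤ) := by exact_mod_cast hq.odd_of_ne_two (by omega)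
  have hq3 : ¬ (3 : ℤ) ∣ q := fun e => by
    have := (Nat.prime_dvd_prime_iff_eq Nat.prime_three hq).1 (Int.natCast_dvd_natCast.1 e)
    omega
  have h7' : (7 : ℤ) ≤ q := by exact_mod_cast h7
  rcases Nat.even_or_odd k with ⟨m, rfl⟩ | ho
  · exfalso
    have h5 : ¬ (3 : ℤ) ∣ q ^ m := fun e => hq3 (Int.prime_three.dvd_of_dvd_pow e)
    have h6 := hq2.pow (n := m)
    have h8 : (7 : ℤ) ≤ q ^ m := h7'.trans (le_self_pow₀ (by omega) (by omega))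
    rw [pow_add] at h4
    generalize (q : ℤ) ^ m = s at *
    rcases h4 with h4 | h4
    · have : s % 3 = 1 ∨ s % 3 = 2 := by omega
      have h9 : s * s % 3 = 1 := by rcases this with e | e <;> rw [Int.mul_emod, e] <;> rfl
      omega
    · obtain ⟨w, rfl⟩ := h6
      have h9 : (2 * (w * w + w) + 1) ∣ 5 := dvd_five_of_odd (i := i) ⟨_, rfl⟩
        (Dvd.dvd.trans ⟨2, by linear_combination -h4⟩ h1)
      have := Int.le_of_dvd (by norm_num) h9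
      nlinarith
  by_contra h5
  have h6 : 3 ≤ k := by obtain ⟨m, rfl⟩ := ho; omega
  have h8 : (q : ℤ) ^ 3 ≤ q ^ k := pow_le_pow_right₀ (by omega) h6
  have h9 : ∀ x : ℤ, Odd x → x ^ k - 1 ∣ E → |x ^ k - 1| ≤ 5 * |x - 1| := fun x hx h => by
    have h10 := dvd_five_of_odd (odd_geom hx ho) (Dvd.dvd.trans ⟨_, (geom_sum_mul x k).symm⟩
      (h.trans h1))
    rw [← geom_sum_mul, abs_mul]
    exact mul_le_mul_of_nonneg_right (Int.le_of_dvd (by norm_num) ((abs_dvd _ _).2 h10))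
      (abs_nonneg _)
  have h11 : 49 * (q : ℤ) ≤ q ^ 3 := by
    nlinarith [mul_nonneg (mul_nonneg (sub_nonneg.2 h7') (by omega : (0 : ℤ) ≤ q + 7))
      (by omega : (0 : ℤ) ≤ q)]
  rcases h4 with h4 | h4
  · have := h9 q hq2 ⟨1, by linear_combination -h4⟩
    rw [abs_of_nonneg (by omega), abs_of_nonneg (by omega)] at this
    omega
  · have := h9 (-q) hq2.neg ⟨-1, by rw [ho.neg_pow]; linear_combination -h4⟩
    rw [ho.neg_pow, abs_of_nonpos (by omega), abs_of_nonpos (by omega)] at this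
    omega

theorem two_pow_mod (i : ℕ) : (2 : ℤ) ^ (4 * i) % 15 = 1 := by
  induction i with
  | zero => rfl
  | succ i ih => rw [mul_add, pow_add, Int.mul_emod, ih]; rfl

theorem aur {q k i : ℕ} (h7 : 7 ≤ q) (hq : q.Prime) (hk : k ≠ 0) (h3 : ¬ (3 : ℤ) ∣ 5 * q ^ k)
    (h4 : 5 * (q : ℤ) ^ k = 2 ^ i + 1 ∨ 5 * (q : ℤ) ^ k + 1 = 2 ^ i) : i = 6 ∧ q = 13 := by
  obtain ⟨j, c, hc, rfl⟩ : ∃ j c, c < 4 ∧ i = 4 * j + c :=
    ⟨i / 4, i % 4, Nat.mod_lt _ (by norm_num), (Nat.div_add_mod i 4).symm⟩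
  have h1 := two_pow_mod j
  have h7' : (7 : ℤ) ≤ q ^ k := (by exact_mod_cast h7 : (7 : ℤ) ≤ q).trans
    (le_self_pow₀ (by exact_mod_cast hq.one_le) hk)
  rw [pow_add] at h4
  rcases h4 with h4 | h4
  swap
  · interval_cases c <;> omega
  obtain rfl : c = 2 := by interval_cases c <;> omega
  have h5 : (2 : ℤ) ^ (4 * j) = (2 ^ j) ^ 4 := by rw [← pow_mul, mul_comm]
  have h6 : j = 0 ∨ j = 1 ∨ (4 : ℤ) ≤ 2 ^ j := by
    rcases j with _ | _ | j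
    · simp
    · simp
    · have : (0 : ℤ) < 2 ^ j := by positivity
      rw [pow_add, pow_add]; omega
  rcases h6 with rfl | rfl | h6
  · norm_num at h4; omega
  · have h8 : (q : ℤ) ^ k = 13 := by norm_num at h4; omega
    refine ⟨rfl, (Nat.prime_dvd_prime_iff_eq hq (by norm_num)).1 ?_⟩
    exact_mod_cast (h8 ▸ dvd_pow_self (q : ℤ) hk : (q : ℤ) ∣ 13)
  exfalso
  have hq' : Prime (q : ℤ) := Nat.prime_iff_prime_int.1 hq
  have h9 : 5 * (q : ℤ) ^ k = (2 * (2 ^ j) ^ 2 - 2 * 2 ^ j + 1) * (2 * (2 ^ j) ^ 2 + 2 * 2 ^ j + 1) := by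
    rw [h4, h5]; ring
  have h10 : ∀ A : ℤ, A ∣ 5 * q ^ k → 5 < A → (q : ℤ) ∣ A := fun A hA h => by
    by_contra h11
    have := (((hq'.coprime_iff_not_dvd.2 h11).symm).pow_right (n := k)).dvd_of_dvd_mul_right hA
    have := Int.le_of_dvd (by norm_num) this
    omega
  have h11 := h10 _ ⟨_, h9⟩ (by nlinarith)
  have h12 := h10 _ ⟨_, h9.trans (mul_comm _ _)⟩ (by nlinarith)
  have h13 : (q : ℤ) ∣ 2 ^ (j + 2) := by
    have := dvd_sub h12 h11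
    rwa [show 2 * ((2 : ℤ) ^ j) ^ 2 + 2 * 2 ^ j + 1 - (2 * (2 ^ j) ^ 2 - 2 * 2 ^ j + 1) = 2 ^ (j + 2) by
      ring] at this
  have := Int.le_of_dvd (by norm_num) (hq'.dvd_of_dvd_pow h13)
  omega

theorem arith_aux {a b q O E : ℕ} (h7 : 7 ≤ q) (hq : q.Prime) (hO : Odd O) (h1 : 1 < O)
    (h2 : O * E ∣ 2 ^ a * 5 * q ^ b) (h3 : ¬ 3 ∣ O * E) (h4 : O = E + 1 ∨ O + 1 = E) :
    (O = 5 ∧ E = 4) ∨ O = q ∨ (E = 64 ∧ q = 13) := by
  have hc : O.Coprime E := by rcases h4 with rfl | rfl <;> simp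
  have h3O : ¬ 3 ∣ O := fun e => h3 (e.mul_right _)
  have h3E : ¬ 3 ∣ E := fun e => h3 (e.mul_left _)
  have h5 : O ∣ 5 * q ^ b := ((Nat.coprime_two_right.2 hO).pow_right a).dvd_of_dvd_mul_left
    (mul_assoc (2 ^ a) 5 _ ▸ (dvd_mul_right O E).trans h2)
  obtain ⟨d, s, hd, hs, rfl⟩ := (Nat.dvd_mul).1 h5
  obtain ⟨k, -, rfl⟩ := (Nat.dvd_prime_pow hq).1 hs
  have hd' := (Nat.dvd_prime Nat.prime_five).1 hd
  rcases eq_or_ne k 0 with rfl | hk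
  · left
    rw [pow_zero] at *
    rcases hd' with rfl | rfl <;> omega
  right
  have h6 : E ∣ 2 ^ a * 5 := ((hc.symm.coprime_dvd_right
    ((dvd_pow_self q hk).mul_left d)).pow_right b).dvd_of_dvd_mul_right
    ((dvd_mul_left E _).trans h2)
  have h8 : 2 ∣ E := by obtain ⟨m, hm⟩ := hO; omega
  rcases hd' with rfl | rfl
  · left
    rw [one_mul] at h4 ⊢
    rw [pow_eq_self (k := k) (i := a) (E := E) h7 hq hk (by exact_mod_cast mul_comm (2 ^ a) 5 ▸ h6)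
      (by exact_mod_cast h8) (by exact_mod_cast h3E) (by exact_mod_cast h4), pow_one]
  · right
    have h9 : E ∣ 2 ^ a := (hc.symm.coprime_dvd_right (dvd_mul_right 5 _)).dvd_of_dvd_mul_right h6
    obtain ⟨i, -, rfl⟩ := (Nat.dvd_prime_pow Nat.prime_two).1 h9
    obtain ⟨rfl, h10⟩ := aur (i := i) h7 hq hk (by exact_mod_cast h3O) (by exact_mod_cast h4)
    exact ⟨rfl, h10⟩

theorem arith {a b q n : ℕ} (h7 : 7 ≤ q) (hq : q.Prime) (h1 : 1 < n)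
    (h2 : n * (n + 1) ∣ 2 ^ a * 5 * q ^ b) (h3 : ¬ 3 ∣ n * (n + 1)) :
    n = 4 ∨ n = q ∨ n + 1 = q ∨ (n = 64 ∧ q = 13) := by
  rcases Nat.even_or_odd n with h | h
  · have := arith_aux h7 hq h.add_one (by omega) (mul_comm n _ ▸ h2) (mul_comm n _ ▸ h3) (.inl rfl)
    omega
  · have := arith_aux h7 hq h h1 h2 h3 (.inr rfl)
    have : n ≠ 63 := by rintro rfl; omega
    omega

end Cfsg.Lib.A15
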